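import Cfsg.Agent.H184.FusBad
import Cfsg.Agent.Prune
set_option linter.all false
prune_inst 0x7f00000000000000000000000000000000000000000000000000000000000000000000000000000000000000000000000000000000000000000000000000000000000000000000000000000000000000003fffffffffffffffffffffffffffbeffbdffffffff
open scoped Cfsg.Agent.FastGrp

/-!
Generation by automorphisms of essential subgroups (comparison of two systems).
-/

set_option autoImplicit false

namespace Cfsg.Agent.H776.Co

open Subgroup Cfsg Cfsg.Agent.H752 Cfsg.Agent.H802 Cfsg.Agent.H744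

/-- a saturated system is contained in every system containing its automorphisms of `S` and of the essential subgroups -/
theorem mp_le_of_essential {Ω : Type*} [Group Ω] {S : Subgroup Ω} [Finite S] {p : ℕ} [Fact p.Prime]
    (hS : IsPGroup p S) {F F' : FusionSystem S} (hF : F.IsSaturated p) (htop : ∀ f : Ω → Ω, Mp F S f → Mp F' S f)
    (hess : ∀ Q : Subgroup Ω, Q < S → F.IsEssential p Q → F.IsFullyAutomized p Q → F.IsReceptive Q →
      ∀ f : Ω → Ω, Mp F Q f → (∀ x ∈ Q, f x ∈ Q) → Mp F' Q f) :
    ∀ (P : Subgroup Ω) (f : Ω → Ω), Mp F P f → Mp F' P f := by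
  refine mp_induction F hS hF (fun P f => Mp F' P f) ?_ ?_ ?_ ?_ ?_
  · intro P f g _ h he
    exact h.congr he
  · intro P R f _ h hR
    exact h.res hR
  · intro P Q f g _ _ h1 h2 hm
    exact h1.comp h2 hm
  · intro P R f g _ h1 _ h2
    exact h1.symm h2
  · intro Q hQa hQr IH α hα f hf
    have hQS : Q ≤ S := hQr.1
    have hfin : Finite Q := finite_of_le hQS
    have hfm : Mp F Q f := mp_of_autGroup hQS hα hf
    have hfQ : ∀ x ∈ Q, f x ∈ Q := fun x hx => by rw [hf x hx]; exact (α ⟨x, hx⟩).2
    by_cases hQeq : Q = S
    · subst hQeq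
      exact htop f hfm
    · have hlt : Q < S := lt_of_le_of_ne hQS hQeq
      have hQn := isFullyNormalized_of_automized_receptive hS hQa hQr
      rcases extendable_dichotomy hS hF hlt hQn _ rfl with ⟨-, hH⟩ | ⟨hess', -⟩
      · have hle : Subgroup.closure {α : MulAut Q | Extends F Q α} ≤ F'.autGroup Q := by
          rw [Subgroup.closure_le]
          rintro β ⟨R, hQR, φ, hφ, he⟩
          have hRS : R ≤ S := (F.le_of_mem hφ).1
          have hfinR : Finite R := finite_of_le hRS
          have hcard : Nat.card Q < Nat.card R := by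
            refine lt_of_le_of_ne (Subgroup.card_le_of_le hQR.le) fun h => ?_
            exact hQR.ne (Subgroup.eq_of_le_of_card_ge hQR.le h.ge)
          have h1 := (IH R (ex φ) (mp_ex hφ) hcard).res hQR.le
          refine h1.mem_autGroup fun x hx => ?_
          rw [ex_apply _ (hQR.le hx), ← he ⟨x, hx⟩]
          rfl
        exact mp_of_autGroup hQS (hle (hH ▸ hα)) hf
      · exact hess Q hlt hess' hQa hQr f hfm hfQ

end Cfsg.Agent.H776.Co
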